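import Mathlib
import Cfsg.Prelude.Def_KGroupFacts
import Cfsg.Prelude.Def_SporadicB
import Cfsg.Agent.Lib.Schur.AltCover

/-!
# Involutions in double covers of alternating groups
-/

set_option autoImplicit false

namespace Cfsg.Agent.Lib.Schur.AltInv

open Cfsg Equiv Equiv.Perm Function
open Cfsg.Agent.Lib.Schur.AltCover

section Perm

variable {α : Type*} [Fintype α] [DecidableEq α]

theorem cycleType_of_even_involution (hα : Fintype.card α ≤ 7) {σ : Perm α} (h2 : σ ^ 2 = 1)
    (hs : sign σ = 1) (h1 : σ ≠ 1) : σ.cycleType = Multiset.replicate 2 2 := by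
  have hm : ∀ m ∈ σ.cycleType, m = 2 := by
    intro m hm
    have h3 : m ∣ orderOf σ := dvd_of_mem_cycleType hm
    have h4 : orderOf σ ∣ 2 := orderOf_dvd_of_pow_eq_one h2
    have h5 := two_le_of_mem_cycleType hm
    have := Nat.le_of_dvd (by norm_num) (h3.trans h4)
    omega
  have hrep := Multiset.eq_replicate_card.mpr hm
  set c := Multiset.card σ.cycleType with hc
  have hsum : 2 * c ≤ 7 := by
    have h3 := sum_cycleType σ
    rw [hrep, Multiset.sum_replicate] at h3
    have h4 : σ.support.card ≤ Fintype.card α := Finset.card_le_univ _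
    simp only [smul_eq_mul] at h3
    omega
  have hsign : ((-1 : ℤˣ)) ^ c = 1 := by
    have h3 := sign_of_cycleType σ
    rw [hrep, hs] at h3
    have h4 : ((-1 : ℤˣ)) ^ (c * 2 + c) = 1 := by simpa using h3.symm
    have h5 : ((-1 : ℤˣ)) ^ (c * 2 + c) = (-1) ^ c := by
      rw [pow_add, mul_comm c 2, pow_mul]
      simp
    rw [← h5, h4]
  have heven : Even c := by
    by_contra hodd
    rw [Nat.not_even_iff_odd] at hodd
    rw [hodd.neg_one_pow] at hsign
    exact absurd hsign (by decide)
  have hc0 : c ≠ 0 := by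
    intro h0
    rw [h0, Multiset.replicate_zero] at hrep
    exact h1 (cycleType_eq_zero.mp hrep)
  have hc2 : c = 2 := by
    obtain ⟨k, hk⟩ := heven
    omega
  rw [hrep, hc2]

/-- Even involutions of at most seven letters are conjugate in the alternating group. -/
theorem exists_even_conj (hα : Fintype.card α ≤ 7) {σ : Perm α} (h2 : σ ^ 2 = 1)
    (hs : sign σ = 1) (h1 : σ ≠ 1) {a b c d : α} (hab : a ≠ b) (hcd : c ≠ d)
    (hcomm : Commute (swap a b) (swap c d)) (hne : swap a b * swap c d ≠ 1) :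
    ∃ g : Perm α, sign g = 1 ∧ g * σ * g⁻¹ = swap a b * swap c d := by
  set τ := swap a b * swap c d with hτ
  have hτ2 : τ ^ 2 = 1 := by
    rw [hτ, hcomm.mul_pow, pow_two, pow_two, swap_mul_self, swap_mul_self, one_mul]
  have hτs : sign τ = 1 := by
    rw [hτ, map_mul, sign_swap hab, sign_swap hcd]
    rfl
  have hct := (cycleType_of_even_involution hα h2 hs h1).trans
    (cycleType_of_even_involution hα hτ2 hτs hne).symm
  obtain ⟨g, hg⟩ := isConj_iff.mp (isConj_iff_cycleType_eq.mpr hct)
  have hsg : sign g = 1 ∨ sign g = -1 := Int.units_eq_one_or _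
  rcases hsg with hsg | hsg
  · exact ⟨g, hsg, hg⟩
  · refine ⟨swap a b * g, ?_, ?_⟩
    · rw [map_mul, sign_swap hab, hsg]
      rfl
    · have hc : swap a b * τ = τ * swap a b := by
        rw [hτ, ← mul_assoc, swap_mul_self, one_mul, mul_assoc, ← hcomm.eq, ← mul_assoc, swap_mul_self,
          one_mul]
      calc swap a b * g * σ * (swap a b * g)⁻¹ = swap a b * (g * σ * g⁻¹) * (swap a b)⁻¹ := by group
        _ = τ := by
            rw [hg, hc, swap_inv, mul_assoc, swap_mul_self, mul_one]

end Perm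

section Main

variable {H : Type*} [Group H] [Finite H]

/-- If Carmichael's relations hold in an extension of the alternating group, the extension splits. -/
theorem exists_complement {α : Type*} [Fintype α] [DecidableEq α] {π : H →* Perm α} (hπ : PreCover π)
    {a₀ a₁ : α} (h : a₀ ≠ a₁) (y : Idx a₀ a₁ → H) (hy : ∀ i, π (y i) = xx a₀ a₁ i.1)
    (h3 : ∀ i, y i ^ 3 = 1) (h2 : ∀ i j, i ≠ j → (y i * y j) ^ 2 = 1) :
    ∃ L : Subgroup H, π.ker.IsComplement' L := by
  classical
  set L := Subgroup.closure (Set.range y) with hL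
  have hb := card_closure_le y h3 h2 (Finset.univ : Finset (Idx a₀ a₁))
  have hu : y '' ((Finset.univ : Finset (Idx a₀ a₁)) : Set (Idx a₀ a₁)) = Set.range y := by
    simp
  rw [hu, ← hL, Finset.card_univ] at hb
  haveI : Nontrivial α := ⟨⟨a₀, a₁, h⟩⟩
  have hr : π.range = alternatingGroup α := by
    ext σ
    constructor
    · rintro ⟨g, rfl⟩
      exact hπ.even g
    · intro hσ
      exact hπ.lift σ hσ
  have hcr : 2 * Nat.card π.range = (Fintype.card α).factorial := by
    rw [hr, Nat.card_eq_fintype_card, two_mul_card_alternatingGroup, Fintype.card_perm]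
  have hbd : 2 * bd (Fintype.card (Idx a₀ a₁)) = (Fintype.card α).factorial := by
    rw [two_mul_bd, card_idx h]
  have hm : L.map π = π.range := by
    apply le_antisymm
    · rintro _ ⟨x, -, rfl⟩
      exact ⟨x, rfl⟩
    · intro σ hσ
      have hσ' : sign σ = 1 := by
        rw [hr] at hσ
        exact hσ
      have := xx_closure h hσ'
      have e : Subgroup.closure (Set.range fun i : Idx a₀ a₁ => xx a₀ a₁ i.1) = L.map π := by
        rw [hL, MonoidHom.map_closure, ← Set.range_comp]
        congr 2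
        ext1 i
        exact (hy i).symm
      rwa [e] at this
  have hcm : Nat.card (L.map π) = Nat.card π.range := by rw [hm]
  have hle : Nat.card (L.map π) ≤ Nat.card L := by
    let f : L →* L.map π := (π.comp L.subtype).codRestrict (L.map π) (fun x => ⟨x.1, x.2, rfl⟩)
    have hf : Surjective f := by
      rintro ⟨_, x, hx, rfl⟩
      exact ⟨⟨x, hx⟩, rfl⟩
    exact Nat.card_le_card_of_surjective f hf
  have hcL : Nat.card L = Nat.card π.range := by omega
  have hinj : ∀ x ∈ L, π x = 1 → x = 1 := by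
    intro x hx hπx
    let f : L →* L.map π := (π.comp L.subtype).codRestrict (L.map π) (fun x => ⟨x.1, x.2, rfl⟩)
    have hf : Surjective f := by
      rintro ⟨_, x, hx, rfl⟩
      exact ⟨⟨x, hx⟩, rfl⟩
    have hbij : Bijective f := by
      apply hf.bijective_of_nat_card_le
      rw [hcL, hcm]
    have : f ⟨x, hx⟩ = f 1 := by
      apply Subtype.ext
      change π x = π 1
      rw [hπx, map_one]
    have := hbij.1 this
    exact congrArg Subtype.val this
  refine ⟨L, Subgroup.isComplement'_of_card_mul_and_disjoint ?_ ?_⟩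
  · have e : Nat.card π.ker * π.ker.index = Nat.card H := Subgroup.card_mul_index _
    rw [Subgroup.index_ker] at e
    rw [hcL, e]
  · rw [Subgroup.disjoint_def]
    intro x hx hxL
    exact hinj x hxL hx

/-- The stem extension attached to a double cover. -/
theorem precover_of_double {n : ℕ} (e : H ⧸ Subgroup.center H ≃* alternatingGroup (Fin n)) :
    ∃ π : H →* Perm (Fin n), PreCover π ∧ π.ker = Subgroup.center H := by
  let π : H →* Perm (Fin n) :=
    (alternatingGroup (Fin n)).subtype.comp (e.toMonoidHom.comp (QuotientGroup.mk' _))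
  have hker : π.ker = Subgroup.center H := by
    ext x
    rw [MonoidHom.mem_ker]
    change ((e (x : H ⧸ Subgroup.center H) : alternatingGroup (Fin n)) : Perm (Fin n)) = 1 ↔ _
    rw [OneMemClass.coe_eq_one, map_eq_one_iff e e.injective, QuotientGroup.eq_one_iff]
  refine ⟨π, ⟨?_, ?_, ?_⟩, hker⟩
  · intro σ hσ
    obtain ⟨x, hx⟩ := e.surjective ⟨σ, hσ⟩
    obtain ⟨g, rfl⟩ := QuotientGroup.mk_surjective x
    refine ⟨g, ?_⟩
    change ((e (g : H ⧸ Subgroup.center H) : alternatingGroup (Fin n)) : Perm (Fin n)) = σ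
    rw [hx]
  · intro g
    exact (e (g : H ⧸ Subgroup.center H)).2
  · rw [hker]

/-- In a non-split double cover of `Alt(n)`, `4 ≤ n ≤ 7`, every involution is central. -/
theorem mem_center_of_orderOf {n : ℕ} (h4 : 4 ≤ n) (h7 : n ≤ 7)
    (hD : IsNonsplitDoubleCover H (alternatingGroup (Fin n))) {x : H} (hx : orderOf x = 2) :
    x ∈ Subgroup.center H := by
  classical
  obtain ⟨hc, ⟨e⟩, hnc⟩ := hD
  obtain ⟨π, hπ, hker⟩ := precover_of_double e
  have hz2 : ∀ z ∈ π.ker, z ^ 2 = 1 := by
    intro z hz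
    rw [hker] at hz
    have : (⟨z, hz⟩ : Subgroup.center H) ^ 2 = 1 := by
      rw [← hc]
      exact pow_card_eq_one'
    exact congrArg Subtype.val this
  have h3 : ∀ z ∈ π.ker, z ^ 3 = 1 → z = 1 := by
    intro z hz hz3
    have := hz2 z hz
    rw [pow_succ, this, one_mul] at hz3
    exact hz3
  have hn : Fintype.card (Fin n) = n := Fintype.card_fin n
  let a₀ : Fin n := ⟨0, by omega⟩
  let a₁ : Fin n := ⟨1, by omega⟩
  let p₀ : Fin n := ⟨2, by omega⟩
  let q₀ : Fin n := ⟨3, by omega⟩
  have h01 : a₀ ≠ a₁ := by simp [a₀, a₁, Fin.ext_iff]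
  let p : Idx a₀ a₁ := ⟨p₀, by simp [p₀, a₀, Fin.ext_iff], by simp [p₀, a₁, Fin.ext_iff]⟩
  let q : Idx a₀ a₁ := ⟨q₀, by simp [q₀, a₀, Fin.ext_iff], by simp [q₀, a₁, Fin.ext_iff]⟩
  have hpq : p ≠ q := by
    intro h
    have := congrArg (fun i : Idx a₀ a₁ => (i.1 : Fin n).1) h
    simp [p, q, p₀, q₀] at this
  have hpq' : p.1 ≠ q.1 := fun h => hpq (Subtype.ext h)
  obtain ⟨y, d, hy, hy3, hdk, hd2, hall⟩ := exists_relator hπ h3 h01 hpq
  have hd1 : d ≠ 1 := by
    intro hd
    subst hd
    obtain ⟨L, hL⟩ := exists_complement hπ h01 y hy hy3 hall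
    rw [hker] at hL
    exact hnc L hL
  rw [← hker, MonoidHom.mem_ker]
  by_contra hne
  -- conjugate `π x` to `x_p x_q`
  have hx2 : x ^ 2 = 1 := by
    rw [← hx]; exact pow_orderOf_eq_one x
  have hcomm := comm_swap h01 q.2.1.symm p.2.2 hpq'
  have htarget : xx a₀ a₁ p.1 * xx a₀ a₁ q.1 = swap a₀ p.1 * swap a₁ q.1 := by
    rw [xx_mul_xx, swap_apply_right, swap_apply_of_ne_of_ne p.2.1 p.2.2]
  have hτne : swap a₀ p.1 * swap a₁ q.1 ≠ 1 := by
    intro h1
    have := congrArg (fun f : Perm (Fin n) => f a₀) h1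
    simp only [Perm.mul_apply, Perm.one_apply] at this
    rw [swap_apply_of_ne_of_ne h01 q.2.1.symm, swap_apply_left] at this
    exact p.2.1 this
  obtain ⟨g, hgs, hg⟩ := exists_even_conj (by rw [hn]; exact h7) (σ := π x)
    (by rw [← map_pow, hx2, map_one]) (hπ.even x) hne p.2.1.symm q.2.2.symm hcomm hτne
  obtain ⟨h, rfl⟩ := hπ.lift g hgs
  have hk : (y p * y q)⁻¹ * (h * x * h⁻¹) ∈ π.ker := by
    rw [MonoidHom.mem_ker, map_mul, map_inv, map_mul, hy, hy, map_mul, map_mul, map_inv, hg, htarget,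
      inv_mul_cancel]
  set k := (y p * y q)⁻¹ * (h * x * h⁻¹) with hkd
  have hcen := Subgroup.mem_center_iff.mp (hπ.central hk)
  have e1 : h * x * h⁻¹ = y p * y q * k := by rw [hkd]; group
  have e2 : (h * x * h⁻¹) ^ 2 = 1 := by rw [conj_pow, hx2, mul_one, mul_inv_cancel]
  rw [e1, (show Commute (y p * y q) k from hcen _).mul_pow, hall p q hpq, hz2 k hk, mul_one] at e2
  exact hd1 e2

end Main

end Cfsg.Agent.Lib.Schur.AltInv
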