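import Mathlib
import Cfsg.Prelude.Def_SporadicB
import Cfsg.Agent.Lib.Schur.AltExplicit

/-!
# A double cover with a non-central involution, from a certificate
-/

set_option autoImplicit false

namespace Cfsg.Agent.Lib.Schur.AltInv

open Cfsg Equiv Equiv.Perm Function
open Cfsg.Agent.Lib.Schur.AltCover Cfsg.Agent.Lib.Compute.PermCert Cfsg.Agent.Lib.Schur.AltExplicit
open scoped IsMulCommutative

/-- A stem extension of `Alt(n)` with kernel of order two is a non-split double cover. -/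
theorem nonsplit_of_stem {n : ℕ} (h4 : 4 ≤ n) {H : Type*} [Group H] [Finite H]
    {σ : H →* alternatingGroup (Fin n)} (hσ : IsStemExtension σ) (hcard : Nat.card σ.ker = 2) :
    IsNonsplitDoubleCover H (alternatingGroup (Fin n)) := by
  have hcen : Subgroup.center (alternatingGroup (Fin n)) = ⊥ :=
    alternatingGroup.center_eq_bot (by simpa using h4)
  have hker : σ.ker = Subgroup.center H := by
    apply le_antisymm hσ.2.1
    intro x hx
    have : σ x ∈ Subgroup.center (alternatingGroup (Fin n)) := by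
      rw [Subgroup.mem_center_iff]
      intro y
      obtain ⟨g, rfl⟩ := hσ.1 y
      rw [← map_mul, ← map_mul, Subgroup.mem_center_iff.mp hx g]
    rw [hcen, Subgroup.mem_bot] at this
    exact this
  refine ⟨by rw [← hker]; exact hcard, ⟨?_⟩, ?_⟩
  · exact (QuotientGroup.quotientMulEquivOfEq hker.symm).trans
      (QuotientGroup.quotientKerEquivOfSurjective σ hσ.1)
  · intro L hL
    rw [← hker] at hL
    have hc := hL.card_mul_card
    have hidx : L.index = 2 := by
      have := Subgroup.card_mul_index L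
      rw [hcard] at hc
      have hpos : 0 < Nat.card L := Nat.card_pos
      have h5 : Nat.card L * L.index = Nat.card L * 2 := by rw [this, ← hc]; ring
      exact Nat.eq_of_mul_eq_mul_left hpos h5
    haveI : L.Normal := Subgroup.normal_of_index_eq_two hidx
    haveI : Fact (Nat.Prime (Nat.card (H ⧸ L))) := ⟨by
      rw [← Subgroup.index_eq_card, hidx]; exact Nat.prime_two⟩
    haveI : IsCyclic (H ⧸ L) := isCyclic_of_prime_card rfl
    letI : CommGroup (H ⧸ L) := IsCyclic.commGroup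
    have hle : commutator H ≤ L := by
      have := Abelianization.commutator_subset_ker (QuotientGroup.mk' L)
      rwa [QuotientGroup.ker_mk'] at this
    have hdis := hL.disjoint
    have hbot : σ.ker = ⊥ := by
      rw [Subgroup.disjoint_def] at hdis
      rw [eq_bot_iff]
      intro x hx
      exact hdis hx (hle (hσ.2.2 hx))
    rw [hbot, Subgroup.card_bot] at hcard
    omega

section Cert

variable {w m N : ℕ}

/-- The double cover from a certificate. -/
theorem double_of_cert {N₀ k : ℕ} (hk4 : 4 ≤ k) (hN : N₀ + k ≤ N) {L : List Level}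
    (hc : chainCheck w m N L = true) {a₀ a₁ : Fin k} (ha : a₀ ≠ a₁)
    (h1 : ∀ e ∈ nextGens L, ∃ i : Fin k, i ≠ a₀ ∧ i ≠ a₁ ∧ ∀ j : Fin k,
      get w m e.f (N₀ + j.1) = N₀ + (xx a₀ a₁ i j).1)
    (h2 : ∀ i : Fin k, i ≠ a₀ → i ≠ a₁ → ∃ e ∈ nextGens L, ∀ j : Fin k,
      get w m e.f (N₀ + j.1) = N₀ + (xx a₀ a₁ i j).1)
    {z₁ : Elt} {u₁ v₁ : List ℕ} (hv₁ : validB w m N z₁ = true)
    (hk₁ : commCheck w m N (nextGens L) u₁ v₁ z₁ = true)
    (hc₁ : ∀ e ∈ nextGens L, allB (fun i => Nat.beq (get w m e.f (get w m z₁.f i))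
      (get w m z₁.f (get w m e.f i))) N = true)
    (hp₁ : allB (fun i => Nat.beq (get w m z₁.f (get w m z₁.f i)) i) N = true)
    {i₁ : ℕ} (hi₁ : i₁ < N) (hn₁ : get w m z₁.f i₁ ≠ i₁)
    (hf₁ : ∀ j : Fin k, get w m z₁.f (N₀ + j.1) = N₀ + j.1)
    (hcard : chainOrder L * 2 = 2 * k.factorial)
    {t : Elt} {ut : List ℕ} (hvt : validB w m N t = true)
    (hwt : wordCheck w m N (nextGens L) ut t = true)
    (hpt : allB (fun i => Nat.beq (get w m t.f (get w m t.f i)) i) N = true)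
    {i₂ : ℕ} (hi₂ : i₂ < N) (hnt : get w m t.f i₂ ≠ i₂) (hi₂' : N₀ ≤ i₂) (hi₂'' : i₂ < N₀ + k) :
    ∃ (H : Type) (_ : Group H) (_ : Finite H), IsNonsplitDoubleCover H (alternatingGroup (Fin k)) ∧
      ∃ x y : H, x ≠ y ∧ orderOf x = 2 ∧ orderOf y = 2 := by
  have hgv := chain_gens_valid hc
  have hgv' := hgv
  rw [List.all_eq_true] at hgv'
  obtain ⟨hm1, hcm1⟩ := comm_of_check hgv hv₁ hk₁
  have hord1 : orderOf (permOf w m N z₁) = 2 :=
    orderOf_eq_prime (pow_two_of_check hv₁ hp₁) (ne_one_of_check hv₁ hi₁ hn₁)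
  have hft : ∀ j : Fin k, (permOf w m N z₁ ⟨N₀ + j.1, by have := j.2; omega⟩ : Fin N).1 = N₀ + j.1 := by
    intro j
    rw [permOf_apply hv₁]
    exact hf₁ j
  obtain ⟨σ, hσ, ⟨e⟩, -⟩ := stem_of_cert hN hc ha h1 h2 (ζ := permOf w m N z₁) hft
    (fun e he => commutes_of_check (hgv' e he) hv₁ (hc₁ e he)) hm1 hcm1 hord1 hcard
  have hkc : Nat.card σ.ker = 2 := by
    rw [Nat.card_congr e.toEquiv, Nat.card_eq_fintype_card]
    simp
  have hmt : permOf w m N t ∈ chainGroup w m N L := wordCheck_mem hgv hvt hwt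
  have hordt : orderOf (permOf w m N t) = 2 :=
    orderOf_eq_prime (pow_two_of_check hvt hpt) (ne_one_of_check hvt hi₂ hnt)
  refine ⟨chainGroup w m N L, inferInstance, inferInstance, nonsplit_of_stem hk4 hσ hkc,
    ⟨permOf w m N z₁, hm1⟩, ⟨permOf w m N t, hmt⟩, ?_, ?_, ?_⟩
  · intro h
    have e1 : permOf w m N z₁ = permOf w m N t := congrArg Subtype.val h
    apply hnt
    have h3 := permOf_apply hvt (⟨i₂, hi₂⟩ : Fin N)
    rw [← e1] at h3
    have hj : N₀ + (i₂ - N₀) = i₂ := by omega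
    have h4 : (permOf w m N z₁ ⟨N₀ + (i₂ - N₀), by omega⟩ : Fin N).1 = N₀ + (i₂ - N₀) :=
      hft ⟨i₂ - N₀, by omega⟩
    have h5 : (⟨N₀ + (i₂ - N₀), by omega⟩ : Fin N) = ⟨i₂, hi₂⟩ := Fin.ext hj
    rw [h5, hj] at h4
    rw [h4] at h3
    exact h3.symm
  · exact (Subgroup.orderOf_mk _ _).trans hord1
  · exact (Subgroup.orderOf_mk _ _).trans hordt

end Cert

end Cfsg.Agent.Lib.Schur.AltInv
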